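import Mathlib
import Cfsg.Agent.Lib.DL9.Aff

/-!
The symplectic section of a primitive module and bounds for fixed spaces.
-/

set_option autoImplicit false
set_option linter.unusedSectionVars false

namespace CfsgLib.Base.PSetup

open Subgroup CfsgLib.DL9 CfsgLib.Perm Module
open scoped Pointwise commutatorElement IsMulCommutative

universe u

variable {G V K : Type*} [Group G] [AddCommGroup V] [DistribMulAction G V] [Field K] [Module K V]
variable (S : PSetup G V K)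

/-- The symplectic section. -/
def W : Subgroup (G ⧸ S.A) := S.F.map (QuotientGroup.mk' S.A)

instance : S.W.Normal := Normal.map inferInstance _ (QuotientGroup.mk'_surjective _)

theorem comm_iff (x y : G) : ⁅x, y⁆ ∈ S.A ↔ Commute (x : G ⧸ S.A) y := by
  rw [← QuotientGroup.eq_one_iff, ← commutatorElement_eq_one_iff_commute]; rfl

instance [Finite G] : IsMulCommutative S.W := ⟨⟨by
  rintro ⟨_, x, hx, rfl⟩ ⟨_, y, hy, rfl⟩
  exact Subtype.ext ((S.comm_iff x y).1 (commutator_le (commutator_mem_commutator hx hy)))⟩⟩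

instance [Finite G] : DistribMulAction G (Additive S.W) := cAct (QuotientGroup.mk' S.A) S.W

theorem card_F : Nat.card S.F = Nat.card S.W * Nat.card S.A := by
  rw [← Core.card_map_mk'_mul_card_inf S.F S.A, inf_eq_right.2 A_le_F]; rfl

theorem card_A_dvd [FaithfulSMul G V] [Finite K] : Nat.card S.A ∣ Nat.card K - 1 := by
  rw [← Nat.card_units]
  exact card_dvd_of_injective S.ι ι_injective

theorem card_A_lt [FaithfulSMul G V] [Finite K] : Nat.card S.A < Nat.card K := by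
  have := Finite.one_lt_card (α := K)
  have := Nat.le_of_dvd (by omega) S.card_A_dvd
  omega

theorem eq_one_of_mem_A [FaithfulSMul G V] {a : G} (ha : a ∈ S.A) {v : V} (hv : v ≠ 0)
    (h : a • v = v) : a = 1 := FaithfulSMul.eq_of_smul_eq_smul (α := V) fun u => by
  have h8 := S.scal ⟨a, ha⟩
  rw [h8, eq_one_of_smul_eq hv ((h8 v).symm.trans h), one_smul, one_smul]

/-- The fixed space. -/
def fix (_ : PSetup G V K) (g : G) : Submodule K V where
  carrier := {v | ∀ c : K, g • c • v = c • v}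
  zero_mem' := by simp
  add_mem' := fun {a b} ha hb c => by rw [smul_add, smul_add, ha, hb]
  smul_mem' := fun c v hv d => by rw [smul_smul d, hv]

variable {S} in
theorem mem_fix {g : G} (hg : g ∈ centralizer (S.A : Set G)) {v : V} : v ∈ S.fix g ↔ g • v = v :=
  ⟨fun h => by simpa using h 1, fun h c => by rw [lin hg, h]⟩

variable [Finite G] [Group.IsSolvable G] [FaithfulSMul G V]

theorem isCyclic_A : IsCyclic S.A :=
  isCyclic_of_injective_ringHom ((Units.coeHom K).comp S.ι) (Units.val_injective.comp ι_injective)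

theorem ker_conj : (MulAut.conjNormal : G →* MulAut S.A).ker = centralizer (S.A : Set G) := by
  ext g
  simp [MonoidHom.mem_ker, mem_centralizer_iff, DFunLike.ext_iff, Subtype.ext_iff,
    eq_mul_inv_iff_mul_eq, eq_comm]

theorem D_one_le : D 1 ⊤ ≤ centralizer (S.A : Set G) := by
  have := S.isCyclic_A
  let _ := (IsCyclic.mulAutMulEquiv S.A).toMonoidHom.commGroupOfInjective
    (IsCyclic.mulAutMulEquiv S.A).injective
  rw [← ker_conj]
  exact Abelianization.commutator_subset_ker _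

theorem index_le : (centralizer (S.A : Set G)).index ≤ Nat.card S.A := by
  have := S.isCyclic_A
  rw [← ker_conj, index_ker]
  exact (card_le_card_group _).trans ((IsCyclic.card_mulAut S.A).trans_le (Nat.totient_le _))

variable {S} in
theorem mem_F' {g : G} (hC : g ∈ centralizer (S.A : Set G)) (hg : ∀ f ∈ S.F, ⁅f, g⁆ ∈ S.A) :
    g ∈ S.F := by
  let T := centralizer (S.A : Set G) ⊓
    (centralizer (S.W : Set (G ⧸ S.A))).comap (QuotientGroup.mk' S.A)
  have h1 : ⁅S.F, T⁆ ≤ S.A := Subgroup.commutator_le.2 fun f hf t ht =>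
    (S.comm_iff _ _).2 (ht.2 _ (mem_map_of_mem _ hf))
  have h2 : ∀ B ≤ S.A, ⁅B, T⁆ = ⊥ := fun B hB => commutator_eq_bot_iff_le_centralizer.2
    (hB.trans (le_centralizer_iff.1 inf_le_left))
  have h3 : ⁅⁅T, T⁆, S.F⁆ = ⊥ := commutator_commutator_eq_bot_of_rotate
    (h2 _ (by rwa [commutator_comm])) (h2 _ h1)
  refine ⟨Core.le_fittingSubgroup (N := T) (Core.isNilpotent_of_commutator_commutator_eq_bot
    (h2 _ fun x hx => mem_A ((commutator_le_self T hx).1)
      (commutator_eq_bot_iff_le_centralizer.1 h3 hx))) ⟨hC, ?_⟩, hC⟩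
  rintro _ ⟨f, hf, rfl⟩
  exact (S.comm_iff _ _).1 (hg f hf)

theorem mem_F_iff {g : G} :
    g ∈ S.F ↔ g ∈ kerA G (Additive S.W) ⊓ centralizer (S.A : Set G) := by
  refine ⟨fun h => ⟨mem_kerA.2 fun w => congrArg Additive.ofMul (Subtype.ext
    (mul_inv_eq_iff_eq_mul.2 (setLike_mul_comm (s := S.W) (mem_map_of_mem _ h) w.toMul.2))), h.2⟩,
    fun h => mem_F' h.2 fun f hf => (S.comm_iff _ _).2 (mul_inv_eq_iff_eq_mul.1 ?_).symm⟩
  exact congrArg (fun x : Additive S.W => (x.toMul : G ⧸ S.A))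
    (mem_kerA.1 h.1 (Additive.ofMul ⟨_, mem_map_of_mem _ hf⟩))

theorem cr_W : CR G (Additive S.W) := cAct_cr (QuotientGroup.mk'_surjective _) fun N _ hN => by
  let π := QuotientGroup.mk' S.A
  have hk : π.ker = S.A := QuotientGroup.ker_mk' _
  have h1 : S.A ≤ N.comap π := hk.ge.trans (ker_le_comap π N)
  have h2 : N.comap π ≤ S.F :=
    (comap_mono hN).trans (comap_map_eq_self (hk.le.trans A_le_F)).le
  obtain ⟨h3, h4⟩ := sup_cent (N.comap π) h1 h2
  refine ⟨(S.F ⊓ centralizer (N.comap π : Set G)).map π,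
    Normal.map inferInstance π (QuotientGroup.mk'_surjective _), eq_bot_iff.2 ?_, ?_⟩
  · rintro _ ⟨hx, w, hw, rfl⟩
    exact hk.ge (h4.le ⟨hx, hw⟩)
  · conv_rhs => rw [W, ← h3, Subgroup.map_sup,
      map_comap_eq_self_of_surjective (QuotientGroup.mk'_surjective _)]

theorem D_le_A {k : ℕ} (hk : 1 ≤ k) (h : D k ⊤ ≤ kerA G (Additive S.W)) : D (k + 1) ⊤ ≤ S.A := by
  have : D k ⊤ ≤ S.F := fun g hg => S.mem_F_iff.2 ⟨h hg, S.D_one_le (D_anti hk _ hg)⟩
  exact (commutator_mono this this).trans commutator_le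

theorem D_top {k : ℕ} (h : D k ⊤ ≤ S.A) (N : Subgroup G) : D (k + 1) ⊤ ≤ N :=
  (commutator_mono h h).trans ((commutator_eq_bot_iff_le_centralizer.2 (le_centralizer _)).le.trans
    bot_le)

theorem D_stab {k : ℕ} (h : D k ⊤ ≤ S.A) {v : V} (hv : v ≠ 0) (N : Subgroup G) :
    D k (MulAction.stabilizer G v) ≤ N := fun _ hg =>
  S.eq_one_of_mem_A (h (D_mono le_top k hg)) hv (D_le k _ hg) ▸ one_mem _

theorem exists_form : ∃ β : S.W →* S.W →* Kˣ, (∀ w, β w w = 1) ∧ perp β ⊤ = ⊥ ∧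
    ∀ (x y : G) (hx : x ∈ S.F) (hy : y ∈ S.F), β ⟨x, mem_map_of_mem _ hx⟩ ⟨y, mem_map_of_mem _ hy⟩ =
      S.ι ⟨⁅x, y⁆, commutator_le (commutator_mem_commutator hx hy)⟩ := by
  obtain ⟨β₀, hβ₀⟩ := exists_commPairing S.ι S.F S.F inf_le_right inf_le_right
    fun x hx y hy => commutator_le (commutator_mem_commutator hx hy)
  have key : ∀ x y : S.F, β₀ x y = 1 ↔ (x : G) * y = y * x := fun x y => by
    rw [hβ₀, map_eq_one_iff _ ι_injective, ← commutatorElement_eq_one_iff_mul_comm, Subtype.ext_iff]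
    rfl
  let π : S.F →* S.W := (QuotientGroup.mk' S.A).subgroupMap S.F
  have hπ : Function.Surjective π := (QuotientGroup.mk' S.A).subgroupMap_surjective S.F
  have hker : ∀ x : S.F, π x = 1 ↔ (x : G) ∈ S.A := fun x => by
    rw [← QuotientGroup.eq_one_iff, Subtype.ext_iff]; rfl
  obtain ⟨β₁, hβ₁⟩ : ∃ β₁ : S.W →* S.F →* Kˣ, ∀ y, β₁ (π y) = β₀.flip y :=
    ⟨π.liftOfSurjective hπ ⟨β₀.flip, fun y hy => MonoidHom.ext fun x =>
      (key x y).2 (x.2.2 _ ((hker y).1 hy)).symm⟩, π.liftOfRightInverse_comp_apply _ _ _⟩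
  obtain ⟨β, hβ⟩ : ∃ β : S.W →* S.W →* Kˣ, ∀ x, β (π x) = β₁.flip x :=
    ⟨π.liftOfSurjective hπ ⟨β₁.flip, fun x hx => MonoidHom.ext fun w => by
      obtain ⟨y, rfl⟩ := hπ w
      rw [MonoidHom.flip_apply, hβ₁]
      exact (key x y).2 (y.2.2 _ ((hker x).1 hx))⟩, π.liftOfRightInverse_comp_apply _ _ _⟩
  replace hβ : ∀ x y, β (π x) (π y) = β₀ x y := fun x y => by
    rw [hβ, MonoidHom.flip_apply, hβ₁, MonoidHom.flip_apply]
  refine ⟨β, fun w => ?_, eq_bot_iff.2 fun w hw => ?_,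
    fun x y hx hy => (hβ ⟨x, hx⟩ ⟨y, hy⟩).trans (hβ₀ _ _)⟩
  · obtain ⟨x, rfl⟩ := hπ w
    rw [hβ, key]
  · obtain ⟨x, rfl⟩ := hπ w
    refine (hker x).2 (mem_A x.2.2 fun y hy => ((key x ⟨y, hy⟩).1 ?_).symm)
    rw [← hβ]
    exact mem_perp.1 hw _ (mem_top _)

theorem card_W_sq : ∃ t, Nat.card S.W = t ^ 2 := by
  obtain ⟨β, halt, hnd, -⟩ := S.exists_form
  simpa using exists_card_eq_sq halt ⊤ (by rw [hnd, inf_bot_eq])

theorem card_W_le [Finite V] [Nontrivial V] : Nat.card S.W ≤ finrank K V ^ 2 := by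
  obtain ⟨β, halt, hnd, hβ⟩ := S.exists_form
  choose x hx hx' using fun w : S.W => w.2
  refine card_le_finrank_sq β ((injective_iff_map_eq_one _).2 fun w hw => mem_bot.1 (hnd.le
    (mem_perp.2 fun u _ => alt_swap halt (DFunLike.congr_fun hw u)))) x
    (fun w => lin (hx w).2) fun u w v => ?_
  have e : ∀ w, (⟨x w, mem_map_of_mem _ (hx w)⟩ : S.W) = w := fun w => Subtype.ext (hx' w)
  rw [← e u, ← e w, hβ _ _ (hx u) (hx w), e, e, ← S.scal, smul_smul, smul_smul, smul_smul]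
  congr 1
  simp [commutatorElement_def, mul_assoc]

theorem prime_dvd {r : ℕ} (hr : r.Prime) (h : r ∣ Nat.card S.W) : r ∣ Nat.card S.A := by
  obtain ⟨β, -, hnd, hβ⟩ := S.exists_form
  have := Fact.mk hr
  obtain ⟨⟨_, x, hx, rfl⟩, hw⟩ := exists_prime_orderOf_dvd_card' r h
  obtain ⟨⟨_, y, hy, rfl⟩, h1⟩ : ∃ u, β ⟨_, x, hx, rfl⟩ u ≠ 1 := by
    by_contra! h1
    rw [mem_bot.1 (hnd.le (mem_perp.2 fun u _ => h1 u)), orderOf_one] at hw
    exact hr.one_lt.ne hw
  have h2 : β ⟨_, x, hx, rfl⟩ ⟨_, y, hy, rfl⟩ ^ r = 1 := by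
    rw [← MonoidHom.pow_apply, ← map_pow, ← hw, pow_orderOf_eq_one, map_one, MonoidHom.one_apply]
  rw [← orderOf_eq_prime h2 h1]
  exact ((congrArg orderOf (hβ x y hx hy)).trans (orderOf_injective S.ι ι_injective _)).dvd.trans
    (orderOf_dvd_natCard _)

variable [Finite V]

theorem fix_F {y : G} (hy : y ∈ S.F) (h : y ∉ S.A) :
    ∃ n, 1 < n ∧ n ∣ Nat.card G ∧ n * finrank K (S.fix y) ≤ finrank K V := by
  obtain ⟨x, hx, h1⟩ : ∃ x ∈ S.F, x * y ≠ y * x := by
    by_contra! h1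
    exact h (mem_A hy.2 h1)
  let z : S.A := ⟨⁅y, x⁆, commutator_le (commutator_mem_commutator hy hx)⟩
  have h2 : 1 < orderOf z := lt_of_le_of_ne (orderOf_pos z) fun h =>
    h1 (commutatorElement_eq_one_iff_mul_comm.1
      (congrArg Subtype.val (orderOf_eq_one_iff.1 h.symm))).symm
  refine ⟨orderOf z, h2, (orderOf_dvd_natCard z).trans (card_subgroup_dvd_card _), ?_⟩
  obtain ⟨e, he⟩ := exists_lin hy.2
  obtain ⟨f, hf⟩ := exists_lin hx.2
  have h3 : ∀ v, e (f v) = (S.ι z : K) • f (e v) := fun v => by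
    rw [he, hf, hf, he, ← S.scal]
    simp [z, commutatorElement_def, mul_smul]
  let p : Fin (orderOf z) → Submodule K V := fun i =>
    Module.End.eigenspace (e : V →ₗ[K] V) ((S.ι z : K) ^ (i : ℕ))
  have h4 : iSupIndep p := (Module.End.eigenspaces_iSupIndep _).comp fun i j h => by
    have : z ^ (i : ℕ) = z ^ (j : ℕ) := ι_injective (Units.ext (by simpa using h))
    exact Fin.ext (pow_injOn_Iio_orderOf i.2 j.2 this)
  have h5 := LinearMap.finrank_le_finrank_of_injective h4.dfinsupp_lsum_injective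
  have h6 : ∀ i : ℕ, finrank K (S.fix y) ≤
      finrank K (Module.End.eigenspace (e : V →ₗ[K] V) ((S.ι z : K) ^ i)) := fun i => by
    induction i with
    | zero =>
      exact Submodule.finrank_mono fun v hv => Module.End.mem_eigenspace_iff.2 (by
        simpa [he] using (mem_fix hy.2).1 hv)
    | succ i ih =>
      refine (ih.trans_eq (f.finrank_map_eq _).symm).trans (Submodule.finrank_mono ?_)
      rintro _ ⟨v, hv, rfl⟩
      have hv : e v = _ := Module.End.mem_eigenspace_iff.1 hv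
      exact Module.End.mem_eigenspace_iff.2 ((h3 v).trans (by
        rw [hv, map_smul, smul_smul, pow_succ']; rfl))
  refine le_trans ?_ ((finrank_directSum K fun i => p i).ge.trans h5)
  simpa using Finset.card_nsmul_le_sum Finset.univ (fun i => finrank K (p i)) _ fun i _ => h6 i

theorem fix_le {g : G} (hg : g ∈ centralizer (S.A : Set G)) (h : g ∉ S.A) :
    ∃ n, 1 < n ∧ n ∣ Nat.card G ∧ 2 * n * finrank K (S.fix g) ≤ (n + 1) * finrank K V := by
  by_cases h1 : g ∈ S.F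
  · obtain ⟨n, h2, h3, h4⟩ := S.fix_F h1 h
    exact ⟨n, h2, h3, by nlinarith⟩
  obtain ⟨x, hx, h2⟩ : ∃ x ∈ S.F, ⁅x, g⁆ ∉ S.A := by
    by_contra! h2
    exact h1 (mem_F' hg h2)
  have h3 : ⁅x, g⁆ ∈ S.F := commutator_le_left _ _ (commutator_mem_commutator hx (mem_top g))
  obtain ⟨n, h4, h5, h6⟩ := S.fix_F h3 h2
  obtain ⟨f, hf⟩ := exists_lin hx.2
  have h7 := Submodule.finrank_sup_add_finrank_inf_eq (S.fix g) ((S.fix g).map (f : V →ₗ[K] V))
  have h8 := Submodule.finrank_le (S.fix g ⊔ (S.fix g).map (f : V →ₗ[K] V))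
  have h9 := Submodule.finrank_mono (show S.fix g ⊓ (S.fix g).map (f : V →ₗ[K] V) ≤ S.fix ⁅x, g⁆ by
    rintro _ ⟨h1, u, hu, rfl⟩
    have h1 : g • f u = f u := (mem_fix hg).1 h1
    refine (mem_fix h3.2).2 (show _ • f u = f u from ?_)
    rw [commutatorElement_def, mul_smul, inv_smul_eq_iff.2 h1.symm, hf, mul_smul, inv_smul_smul,
      mul_smul, (mem_fix hg).1 hu])
  rw [f.finrank_map_eq] at h7
  exact ⟨n, h4, h5, by nlinarith⟩

end CfsgLib.Base.PSetup
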